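import Groth.Agent.Ega2.H295.PnUniq
import Groth.Prelude.Def_ProjUP

/-!
# The pulled back coordinates and the ratios of the coordinates

* `res_coord`: `X_k = (X_k / X_i) X_i` over `D_+(X_i)`.
* `res_tsec`: the same for the pulled back coordinates.
* `ratio_of_rel`: if over `V` every pulled back coordinate `t_k` is `g k • t_i`, then `V` is mapped into `D_+(X_i)`
  and `g k` is the pull back of `X_k / X_i`.
-/

set_option autoImplicit false
universe u
open CategoryTheory CategoryTheory.Limits AlgebraicGeometry TopologicalSpace Opposite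
open Groth.Agent.Fdesc.LocGen
open Groth.Agent.VarietyB Groth.Agent.VarietyB.ProjGlue
open Groth.Agent.Ega2.H295.PnUniq

namespace Groth.Agent.Ega2.H295.PnCoord

attribute [local instance] MvPolynomial.gradedAlgebra

variable {X : Scheme.{u}} {n : ℕ} {R : Type u} [CommRing R]

/-- The coordinate `T_k` as a section over the whole space. -/
noncomputable def cd (n : ℕ) (R : Type u) [CommRing R] (k : Fin (n + 1)) :
    Γ(Twist.twist (MvPolynomial.homogeneousSubmodule (Fin (n + 1)) R) 1, ⊤) :=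
  ProjUP.coord n R k

theorem res_cd_self (i : Fin (n + 1)) :
    res (Twist.twist (MvPolynomial.homogeneousSubmodule (Fin (n + 1)) R) 1)
      (le_top : Dp (Fin (n + 1)) R i ≤ ⊤) (cd n R i) = VeryAmpleCrit.gen R i := rfl

theorem isGen_res_cd (i : Fin (n + 1)) :
    IsGen (res (Twist.twist (MvPolynomial.homogeneousSubmodule (Fin (n + 1)) R) 1)
      (le_top : Dp (Fin (n + 1)) R i ≤ ⊤) (cd n R i)) :=
  VeryAmpleCrit.isGen_gen i

theorem res_cd (i k : Fin (n + 1)) :
    res (Twist.twist (MvPolynomial.homogeneousSubmodule (Fin (n + 1)) R) 1)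
      (le_top : Dp (Fin (n + 1)) R i ≤ ⊤) (cd n R k) =
      ProjStd.ratio (Fin (n + 1)) R i k • res (Twist.twist (MvPolynomial.homogeneousSubmodule (Fin (n + 1)) R) 1)
        (le_top : Dp (Fin (n + 1)) R i ≤ ⊤) (cd n R i) := by
  refine Subtype.ext (funext fun x => Subtype.ext ?_)
  refine Eq.trans ?_ (TwistBasic.smulS_val (𝒜 := MvPolynomial.homogeneousSubmodule (Fin (n + 1)) R) 1
    (ProjStd.ratio (Fin (n + 1)) R i k)
    (res (Twist.twist (MvPolynomial.homogeneousSubmodule (Fin (n + 1)) R) 1)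
      (le_top : Dp (Fin (n + 1)) R i ≤ ⊤) (cd n R i)) x).symm
  have e1 := ProjStd.ratio_apply (Fin (n + 1)) R i k x
  refine Eq.trans ?_ (congrArg (fun z => z * Localization.mk (MvPolynomial.X i)
    (⟨1, VeryAmpleCrit.one_notMem (MvPolynomial.homogeneousSubmodule (Fin (n + 1)) R) x.1⟩ :
      x.1.asHomogeneousIdeal.toIdeal.primeCompl)) e1).symm
  refine Eq.trans ?_ (Localization.mk_mul _ _ _ _).symm
  refine Localization.mk_eq_mk_iff.mpr ((Localization.r_iff_exists).mpr ⟨1, ?_⟩)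
  simp
  ring

/-- The pulled back coordinate. -/
noncomputable def tsec (r : X ⟶ Proj (MvPolynomial.homogeneousSubmodule (Fin (n + 1)) R)) (k : Fin (n + 1)) :
    Γ((Scheme.Modules.pullback r).obj
      (Twist.twist (MvPolynomial.homogeneousSubmodule (Fin (n + 1)) R) 1), ⊤) :=
  pullTop r (cd n R k)

theorem tsec_eq (r : X ⟶ CohB1.ProjSpace n R) (k : Fin (n + 1)) :
    tsec r k = ProjUP.pullSec r (Twist.twistProjSpace n R 1) (ProjUP.coord n R k) := rfl

theorem res_tsec_eq (r : X ⟶ Proj (MvPolynomial.homogeneousSubmodule (Fin (n + 1)) R))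
    (D : (Proj (MvPolynomial.homogeneousSubmodule (Fin (n + 1)) R)).Opens) (k : Fin (n + 1)) :
    res _ (le_top : r ⁻¹ᵁ D ≤ ⊤) (tsec r k) = pullSec r (res _ (le_top : D ≤ ⊤) (cd n R k)) :=
  res_pullSec r (le_top : D ≤ ⊤) (cd n R k)

theorem isGen_res_tsec (r : X ⟶ Proj (MvPolynomial.homogeneousSubmodule (Fin (n + 1)) R)) (i : Fin (n + 1))
    {V : X.Opens} (e : V ≤ r ⁻¹ᵁ Dp (Fin (n + 1)) R i) :
    IsGen (res _ (le_top : V ≤ ⊤) (tsec r i)) := by
  have h := ((isGen_res_cd (R := R) i).pullSec r).res e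
  rw [← res_tsec_eq, res_res] at h
  exact h

theorem res_tsec (r : X ⟶ Proj (MvPolynomial.homogeneousSubmodule (Fin (n + 1)) R)) (i k : Fin (n + 1))
    {V : X.Opens} (e : V ≤ r ⁻¹ᵁ Dp (Fin (n + 1)) R i) :
    res _ (le_top : V ≤ ⊤) (tsec r k) =
      (r.appLE (Dp (Fin (n + 1)) R i) V e (ProjStd.ratio (Fin (n + 1)) R i k)) •
        res _ (le_top : V ≤ ⊤) (tsec r i) := by
  have h := congrArg (pullSec r) (res_cd (R := R) i k)
  rw [pullSec_smul, ← res_tsec_eq, ← res_tsec_eq] at h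
  have h2 := congrArg (res _ e) h
  rw [res_smul, res_res, res_res] at h2
  exact h2

theorem iSup_preimage (r : X ⟶ Proj (MvPolynomial.homogeneousSubmodule (Fin (n + 1)) R)) :
    ⨆ i, r ⁻¹ᵁ Dp (Fin (n + 1)) R i = ⊤ := by
  rw [← Scheme.Hom.preimage_iSup, CoordData.iSup_basicOpen_X]
  rfl

theorem exists_mem (r : X ⟶ Proj (MvPolynomial.homogeneousSubmodule (Fin (n + 1)) R)) (x : X) :
    ∃ i, x ∈ r ⁻¹ᵁ Dp (Fin (n + 1)) R i := by
  have h : x ∈ ⨆ i, r ⁻¹ᵁ Dp (Fin (n + 1)) R i := by rw [iSup_preimage]; trivial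
  exact Opens.mem_iSup.mp h

/-- If over `V` every pulled back coordinate `t_k` is `g k • t_i`, then `V` is mapped into `D_+(X_i)` and `g k` is the
pull back of `X_k / X_i`. -/
theorem ratio_of_rel (r : X ⟶ Proj (MvPolynomial.homogeneousSubmodule (Fin (n + 1)) R)) (i : Fin (n + 1))
    {V : X.Opens} (g : Fin (n + 1) → Γ(X, V))
    (hg : ∀ k, res _ (le_top : V ≤ ⊤) (tsec r k) = g k • res _ (le_top : V ≤ ⊤) (tsec r i)) :
    ∃ e : V ≤ r ⁻¹ᵁ Dp (Fin (n + 1)) R i, ∀ k,
      r.appLE (Dp (Fin (n + 1)) R i) V e (ProjStd.ratio (Fin (n + 1)) R i k) = g k := by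
  have e : V ≤ r ⁻¹ᵁ Dp (Fin (n + 1)) R i := by
    intro x hx
    obtain ⟨j, hj⟩ := exists_mem r x
    let W : X.Opens := V ⊓ r ⁻¹ᵁ Dp (Fin (n + 1)) R j
    have hW : x ∈ W := ⟨hx, hj⟩
    have hWV : W ≤ V := inf_le_left
    have hWj : W ≤ r ⁻¹ᵁ Dp (Fin (n + 1)) R j := inf_le_right
    have h1 := res_tsec r j i hWj
    have h2 := congrArg (res _ hWV) (hg j)
    rw [res_smul, res_res, res_res] at h2
    have h3 := isGen_res_tsec r j hWj
    rw [h1, smul_smul] at h2
    have h4 : (1 : Γ(X, W)) = ores hWV (g j) *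
        r.appLE (Dp (Fin (n + 1)) R j) W hWj (ProjStd.ratio (Fin (n + 1)) R j i) :=
      h3.ext (by rw [one_smul]; exact h2)
    have h5 : IsUnit (r.appLE (Dp (Fin (n + 1)) R j) W hWj (ProjStd.ratio (Fin (n + 1)) R j i)) :=
      IsUnit.of_mul_eq_one_right _ h4.symm
    have h6 : r.appLE (Dp (Fin (n + 1)) R j) W hWj (ProjStd.ratio (Fin (n + 1)) R j i) =
        ores hWj (r.app (Dp (Fin (n + 1)) R j) (ProjStd.ratio (Fin (n + 1)) R j i)) := by
      rfl
    have h7 : x ∈ X.basicOpen (ores hWj (r.app (Dp (Fin (n + 1)) R j) (ProjStd.ratio (Fin (n + 1)) R j i))) := by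
      rw [← h6, Scheme.basicOpen_of_isUnit _ h5]
      exact hW
    have h8 : X.basicOpen (ores hWj (r.app (Dp (Fin (n + 1)) R j) (ProjStd.ratio (Fin (n + 1)) R j i))) ≤
        r ⁻¹ᵁ Dp (Fin (n + 1)) R i := by
      refine (X.basicOpen_res _ _).le.trans (inf_le_right.trans ?_)
      rw [← Scheme.preimage_basicOpen]
      refine r.preimage_mono ?_
      exact (ProjStd.stdData_basicOpen (Fin (n + 1)) R j i).le.trans inf_le_right
    exact h8 h7
  refine ⟨e, fun k => ?_⟩
  exact (isGen_res_tsec r i e).ext ((res_tsec r i k e).symm.trans (hg k))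

end Groth.Agent.Ega2.H295.PnCoord
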