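import Groth.Agent.Ega2.H295.PnCoord

/-!
# Uniqueness part of the universal property of projective space
-/

set_option autoImplicit false
universe u
open CategoryTheory CategoryTheory.Limits AlgebraicGeometry TopologicalSpace Opposite
open Groth.Agent.Fdesc.LocGen
open Groth.Agent.VarietyB Groth.Agent.VarietyB.ProjGlue
open Groth.Agent.Ega2.H295.PnUniq Groth.Agent.Ega2.H295.PnCoord

namespace Groth.Agent.Ega2.H295.PnExt

attribute [local instance] MvPolynomial.gradedAlgebra

variable {X : Scheme.{u}} {n : ℕ} {R : Type u} [CommRing R]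

theorem ext_of_hom (r r' : X ⟶ Proj (MvPolynomial.homogeneousSubmodule (Fin (n + 1)) R))
    (h : r ≫ ProjStd.toSpec (Fin (n + 1)) R = r' ≫ ProjStd.toSpec (Fin (n + 1)) R)
    (τ : (Scheme.Modules.pullback r).obj (Twist.twist (MvPolynomial.homogeneousSubmodule (Fin (n + 1)) R) 1) ⟶
      (Scheme.Modules.pullback r').obj (Twist.twist (MvPolynomial.homogeneousSubmodule (Fin (n + 1)) R) 1))
    (hτ : ∀ i, τ.app ⊤ (tsec r i) = tsec r' i) : r = r' := by
  refine hom_ext_opens (fun i => r ⁻¹ᵁ Dp (Fin (n + 1)) R i) (iSup_preimage r) r r' fun i => ?_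
  have key : ∀ k, res _ (le_top : r ⁻¹ᵁ Dp (Fin (n + 1)) R i ≤ ⊤) (tsec r' k) =
      (r.appLE (Dp (Fin (n + 1)) R i) _ le_rfl (ProjStd.ratio (Fin (n + 1)) R i k)) •
        res _ (le_top) (tsec r' i) := by
    intro k
    have h3 := congrArg (τ.app _) (res_tsec r i k (le_refl (r ⁻¹ᵁ Dp (Fin (n + 1)) R i)))
    rw [Scheme.Modules.Hom.app_smul, app_res, app_res, hτ, hτ] at h3
    exact h3
  obtain ⟨e, he⟩ := ratio_of_rel r' i _ key
  exact ι_comp_eq_of_ratio r r' h i le_rfl e (fun k => (he k).symm)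

end Groth.Agent.Ega2.H295.PnExt
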