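import Groth.Agent.Ega2.H295.PnCoord
import Groth.Agent.Ega2.VeryAmpleAmple
import Groth.Agent.Ega2.QCohLocal

/-!
# Morphisms from an affine scheme to projective space are determined by the relations of the pulled back coordinates
-/

set_option autoImplicit false
universe u
open CategoryTheory CategoryTheory.Limits AlgebraicGeometry TopologicalSpace Opposite
open Groth.Agent.Fdesc.LocGen
open Groth.Agent.VarietyB Groth.Agent.VarietyB.ProjGlue
open Groth.Agent.Ega2.H295.PnUniq Groth.Agent.Ega2.H295.PnCoord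

namespace Groth.Agent.Ega2.H295.PnRel

attribute [local instance] MvPolynomial.gradedAlgebra

variable {X : Scheme.{u}} {n : ℕ} {R : Type u} [CommRing R]

theorem isInvertible_twist_one (n : ℕ) (R : Type u) [CommRing R] :
    PicF.IsInvertible (Twist.twist (MvPolynomial.homogeneousSubmodule (Fin (n + 1)) R) 1) :=
  Groth.Agent.Ega2.VeryAmpleAmple.isInvertible_twistProjSpace n R 1

theorem isQCoh_pullback_twist_one (s : X ⟶ Proj (MvPolynomial.homogeneousSubmodule (Fin (n + 1)) R)) :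
    Coh.IsQCoh ((Scheme.Modules.pullback s).obj
      (Twist.twist (MvPolynomial.homogeneousSubmodule (Fin (n + 1)) R) 1)) :=
  Groth.Agent.Ega2.QCohLocal.isQCoh_of_isInvertible (isInvertible_pullback s (isInvertible_twist_one n R))

theorem ext_of_rel [IsAffine X] (s₁ s₂ : X ⟶ Proj (MvPolynomial.homogeneousSubmodule (Fin (n + 1)) R))
    (h12 : s₁ ≫ ProjStd.toSpec (Fin (n + 1)) R = s₂ ≫ ProjStd.toSpec (Fin (n + 1)) R)
    (hrel : ∀ (i k : Fin (n + 1)) (a b : Γ(X, ⊤)), a • tsec s₁ k = b • tsec s₁ i →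
      a • tsec s₂ k = b • tsec s₂ i) : s₁ = s₂ := by
  have htop : IsAffineOpen (⊤ : X.Opens) := isAffineOpen_top X
  have hQ := isQCoh_pullback_twist_one s₁
  have hloc : ∀ x : X, ∃ V : X.Opens, x ∈ V ∧ V.ι ≫ s₁ = V.ι ≫ s₂ := by
    intro x
    obtain ⟨i, hi⟩ := exists_mem s₁ x
    obtain ⟨f, hfle, hxf⟩ := htop.exists_basicOpen_le (⟨x, hi⟩ :
      (s₁ ⁻¹ᵁ Dp (Fin (n + 1)) R i : X.Opens)) trivial
    refine ⟨X.basicOpen f, hxf, ?_⟩
    have hL := htop.isLocalization_basicOpen f
    have key : ∀ k, res _ (le_top : X.basicOpen f ≤ ⊤) (tsec s₂ k) =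
        (s₁.appLE (Dp (Fin (n + 1)) R i) (X.basicOpen f) hfle
          (ProjStd.ratio (Fin (n + 1)) R i k)) • res _ (le_top) (tsec s₂ i) := by
      intro k
      have h3 := res_tsec s₁ i k hfle
      generalize s₁.appLE (Dp (Fin (n + 1)) R i) (X.basicOpen f) hfle
          (ProjStd.ratio (Fin (n + 1)) R i k) = g at h3 ⊢
      obtain ⟨⟨a, ⟨_, m, rfl⟩⟩, ha⟩ := IsLocalization.surj (Submonoid.powers f) g
      have ha' : g * ores (le_top : X.basicOpen f ≤ ⊤) (f ^ m) =
        ores (le_top : X.basicOpen f ≤ ⊤) a := ha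
      have h4 : res _ (le_top : X.basicOpen f ≤ ⊤)
          (f ^ m • tsec s₁ k - a • tsec s₁ i) = 0 := by
        rw [map_sub, res_smul, res_smul, h3, smul_smul, mul_comm, ha', sub_self]
      obtain ⟨N, hN⟩ := Groth.Agent.Fdesc.QCohStalk.exists_pow_smul_eq_zero _ htop hQ f
        (f ^ m • tsec s₁ k - a • tsec s₁ i) h4
      rw [smul_sub, smul_smul, smul_smul, sub_eq_zero] at hN
      have h5 := congrArg (res _ (le_top : X.basicOpen f ≤ ⊤)) (hrel i k _ _ hN)
      rw [res_smul, res_smul, map_mul, map_mul, ← ha'] at h5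
      have hu : IsUnit (ores (le_top : X.basicOpen f ≤ ⊤) f) :=
        X.toRingedSpace.isUnit_res_basicOpen f
      have hu2 : IsUnit (ores (le_top : X.basicOpen f ≤ ⊤) (f ^ N) *
          ores (le_top : X.basicOpen f ≤ ⊤) (f ^ m)) := by
        rw [map_pow, map_pow]
        exact (hu.pow _).mul (hu.pow _)
      apply hu2.smul_left_cancel.mp
      rw [h5, smul_smul]
      congr 1
      ring
    obtain ⟨e, he⟩ := ratio_of_rel s₂ i _ key
    exact ι_comp_eq_of_ratio s₁ s₂ h12 i hfle e (fun k => (he k).symm)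
  choose V hxV hV using hloc
  refine hom_ext_opens V ?_ s₁ s₂ hV
  rw [eq_top_iff]
  intro x _
  exact Opens.mem_iSup.mpr ⟨x, hxV x⟩

end Groth.Agent.Ega2.H295.PnRel
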