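import Groth.Agent.Ega2.VeryAmpleCrit
import Groth.Agent.Fdesc.QCohStalk

/-!
# Uniqueness of morphisms to projective space from the ratios of the coordinates
-/

set_option autoImplicit false
universe u
open CategoryTheory CategoryTheory.Limits AlgebraicGeometry TopologicalSpace Opposite
open Groth.Agent.Fdesc.LocGen
open Groth.Agent.VarietyB Groth.Agent.VarietyB.ProjGlue

namespace Groth.Agent.Ega2.H295.PnUniq

attribute [local instance] MvPolynomial.gradedAlgebra

variable {X : Scheme.{u}} {I : Type} {R : Type u} [CommRing R]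

/-- The standard open `D_+(X_i)`. -/
noncomputable abbrev Dp (I : Type) (R : Type u) [CommRing R] (i : I) :
    (Proj (MvPolynomial.homogeneousSubmodule I R)).Opens :=
  Proj.basicOpen (MvPolynomial.homogeneousSubmodule I R) (MvPolynomial.X i)

/-- Dehomogenization, onto the functions on `D_+(X_i)`. -/
noncomputable def dpHom (I : Type) (R : Type u) [CommRing R] (i : I) :
    MvPolynomial I R →+* Γ(Proj (MvPolynomial.homogeneousSubmodule I R), Dp I R i) :=
  (ProjStd.stdData I R).hom (ProjStd.toSpec I R) i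

theorem dpHom_surjective (i : I) : Function.Surjective (dpHom I R i) :=
  ProjStd.hom_std_surjective I R i

theorem dpHom_X (i k : I) : dpHom I R i (MvPolynomial.X k) = ProjStd.ratio I R i k :=
  CoordData.hom_X (ProjStd.stdData I R) (ProjStd.toSpec I R) i k

theorem dpHom_C (i : I) (a : R) :
    dpHom I R i (MvPolynomial.C a) = CoordData.baseHom (ProjStd.toSpec I R) (Dp I R i) a :=
  MvPolynomial.eval₂Hom_C (CoordData.baseHom (ProjStd.toSpec I R) ((ProjStd.stdData I R).U i))
    (fun k => (ProjStd.stdData I R).f i k) a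

theorem appLE_baseHom {P : Scheme.{u}} (r : X ⟶ P) (q : P ⟶ Spec (CommRingCat.of R)) {D : P.Opens} {V : X.Opens}
    (e : V ≤ r ⁻¹ᵁ D) (a : R) :
    r.appLE D V e (CoordData.baseHom q D a) = CoordData.baseHom (r ≫ q) V a := by
  simp only [CoordData.baseHom, RingHom.comp_apply]
  have h1 := Scheme.Hom.map_appLE r e (homOfLE (le_top : D ≤ ⊤)).op
  refine (congr(($h1).hom (q.appTop.hom ((Scheme.ΓSpecIso (CommRingCat.of R)).inv.hom a)))).trans ?_
  rw [Scheme.Hom.comp_appTop, Scheme.Hom.appLE]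
  rfl

theorem appLE_eq_of_ratio (r r' : X ⟶ Proj (MvPolynomial.homogeneousSubmodule I R))
    (h : r ≫ ProjStd.toSpec I R = r' ≫ ProjStd.toSpec I R) {V : X.Opens} (i : I)
    (e : V ≤ r ⁻¹ᵁ Dp I R i) (e' : V ≤ r' ⁻¹ᵁ Dp I R i)
    (hr : ∀ k, r.appLE (Dp I R i) V e (ProjStd.ratio I R i k) = r'.appLE (Dp I R i) V e' (ProjStd.ratio I R i k)) :
    r.appLE (Dp I R i) V e = r'.appLE (Dp I R i) V e' := by
  have key : (r.appLE (Dp I R i) V e).hom.comp (dpHom I R i) =
      (r'.appLE (Dp I R i) V e').hom.comp (dpHom I R i) := by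
    apply MvPolynomial.ringHom_ext
    · intro a
      rw [RingHom.comp_apply, RingHom.comp_apply, dpHom_C]
      refine (appLE_baseHom r (ProjStd.toSpec I R) e a).trans ?_
      rw [h]
      exact (appLE_baseHom r' (ProjStd.toSpec I R) e' a).symm
    · intro k
      rw [RingHom.comp_apply, RingHom.comp_apply, dpHom_X]
      exact hr k
  ext z
  obtain ⟨p, rfl⟩ := dpHom_surjective i z
  exact congr($key p)

/-- Two morphisms to projective space over `Spec R` which map `V` into `D_+(X_i)` and pull back the ratios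
`X_k / X_i` to the same functions on `V` agree on `V`. -/
theorem ι_comp_eq_of_ratio (r r' : X ⟶ Proj (MvPolynomial.homogeneousSubmodule I R))
    (h : r ≫ ProjStd.toSpec I R = r' ≫ ProjStd.toSpec I R) {V : X.Opens} (i : I)
    (e : V ≤ r ⁻¹ᵁ Dp I R i) (e' : V ≤ r' ⁻¹ᵁ Dp I R i)
    (hr : ∀ k, r.appLE (Dp I R i) V e (ProjStd.ratio I R i k) = r'.appLE (Dp I R i) V e' (ProjStd.ratio I R i k)) :
    V.ι ≫ r = V.ι ≫ r' := by
  have h1 := appLE_eq_of_ratio r r' h i e e' hr
  have h2 : r.resLE (Dp I R i) V e ≫ (Dp I R i).toSpecΓ = r'.resLE (Dp I R i) V e' ≫ (Dp I R i).toSpecΓ := by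
    rw [← Scheme.Opens.toSpecΓ_SpecMap_appLE, ← Scheme.Opens.toSpecΓ_SpecMap_appLE, h1]
  have h3 : IsAffine (Dp I R i).toScheme := ProjStd.isAffineOpen_U I R i
  have h4 : IsIso (Dp I R i).toSpecΓ := by
    have : IsIso (Dp I R i).toScheme.toSpecΓ := inferInstance
    rw [Scheme.Opens.toSpecΓ]
    infer_instance
  rw [cancel_mono] at h2
  rw [← Scheme.Hom.resLE_comp_ι r e, ← Scheme.Hom.resLE_comp_ι r' e', h2]

end Groth.Agent.Ega2.H295.PnUniq
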